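import Mathlib

/-! Chains of subgroups. -/

set_option autoImplicit false
set_option linter.all false

namespace Cfsg.Agent.H54

variable {G : Type*} [Group G]

/-- `Chn k H`: there is a chain of `k` proper steps from the trivial subgroup to `H` -/
inductive Chn : ℕ → Subgroup G → Prop
  | bot : Chn 0 ⊥
  | step {k : ℕ} {H K : Subgroup G} (h : Chn k H) (hlt : H < K) : Chn (k + 1) K

theorem Chn.toFun {k : ℕ} {H : Subgroup G} (h : Chn k H) :
    ∃ c : Fin (k + 1) → Subgroup G, StrictMono c ∧ c (Fin.last k) = H := by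
  induction h with
  | bot => exact ⟨fun _ => ⊥, fun a b hab => absurd hab (by omega), rfl⟩
  | @step k H K h hlt ih =>
    obtain ⟨c, hc, hl⟩ := ih
    refine ⟨Fin.snoc c K, ?_, by simp⟩
    rw [Fin.strictMono_iff_lt_succ]
    intro i
    refine Fin.lastCases ?_ (fun j => ?_) i
    · rw [Fin.succ_last, Fin.snoc_last, Fin.snoc_castSucc, hl]; exact hlt
    · rw [Fin.succ_castSucc, Fin.snoc_castSucc, Fin.snoc_castSucc]
      exact hc (Fin.castSucc_lt_succ)

theorem not_chn {n : ℕ} (h9 : ∀ c : Fin (n + 1) → Subgroup G, ¬ StrictAnti c) (H : Subgroup G) :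
    ¬ Chn n H := by
  intro h
  obtain ⟨c, hc, -⟩ := h.toFun
  exact h9 (fun i => c (Fin.rev i)) (fun a b hab => hc (Fin.rev_lt_rev.2 hab))

theorem chn_of_card [Finite G] (k : ℕ) : ∀ H : Subgroup G, Nat.card H = 2 ^ k → Chn k H := by
  haveI : Fact (Nat.Prime 2) := ⟨Nat.prime_two⟩
  induction k with
  | zero =>
    intro H hH
    rw [pow_zero] at hH
    rw [Subgroup.card_eq_one.1 hH]; exact Chn.bot
  | succ k ih =>
    intro H hH
    obtain ⟨K, hK⟩ := Sylow.exists_subgroup_card_pow_prime (G := ↥H) 2 (n := k) (by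
      rw [hH]; exact pow_dvd_pow 2 (Nat.le_succ k))
    have h1 : Nat.card (K.map H.subtype) = 2 ^ k := by
      rw [Subgroup.card_map_of_injective (Subgroup.subtype_injective H)]; exact hK
    refine Chn.step (ih _ h1) (lt_of_le_of_ne (Subgroup.map_subtype_le K) ?_)
    intro he
    rw [he, hH] at h1
    have := Nat.pow_right_injective le_rfl h1
    omega

end Cfsg.Agent.H54
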