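import Mathlib
import Cfsg.Agent.CIT.Join

set_option autoImplicit false
set_option linter.unusedSectionVars false
set_option linter.style.haveILetI false
set_option linter.unusedVariables false

/-!
# A pair of natural vertices cannot act on a 2-group with odd elements fixed point free
-/

namespace Cfsg.Agent.H54.MtPair

open Subgroup Cfsg.Agent.H80 Cfsg.Agent.CIT

section Act

variable {X : Type*} [Group X] {V : Type*} [AddCommGroup V] (ρ : X →* AddMonoid.End V)

theorem mulv (a b : X) (v : V) : ρ (a * b) v = ρ a (ρ b v) := by rw [map_mul]; rfl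

theorem onev (v : V) : ρ 1 v = v := by rw [map_one]; rfl

theorem three (hV2 : ∀ v : V, v + v = 0) {y : X} (hy : y ^ 3 = 1) (hf : ∀ v, ρ y v = v → v = 0) (v : V) :
    v + ρ y v + ρ y (ρ y v) = 0 := by
  apply hf
  have e : ρ y (ρ y (ρ y v)) = v := by
    rw [← mulv, ← mulv, show y * y * y = 1 by rw [← hy, pow_succ, pow_two], onev]
  rw [map_add, map_add, e]
  abel

/-- the subspace `[V, z]` -/
def U (z : X) : Set V := {u | ∃ v, u = v + ρ z v}

theorem U_cj {z n : X} {u : V} (hu : u ∈ U ρ z) : ρ n u ∈ U ρ (n * z * n⁻¹) := by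
  obtain ⟨v, rfl⟩ := hu
  refine ⟨ρ n v, ?_⟩
  rw [map_add, ← mulv, ← mulv]
  congr 2
  group

theorem fix_of_mem_U (hV2 : ∀ v : V, v + v = 0) {z : X} (hz : z * z = 1) {u : V} (hu : u ∈ U ρ z) : ρ z u = u := by
  obtain ⟨v, rfl⟩ := hu
  rw [map_add, ← mulv, hz, onev, add_comm]

theorem key (hV2 : ∀ v : V, v + v = 0) {a b c y : X} (hy : y ^ 3 = 1) (hf : ∀ v, ρ y v = v → v = 0)
    (hb : y * a * y⁻¹ = b) (hab : a * b = b * a) (habc : a * b = c) (haa : a * a = 1)
    (hay : (a * y) ^ 3 = 1) (hfay : ∀ v, ρ (a * y) v = v → v = 0) (v : V) :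
    v + ρ c v ∈ U ρ b := by
  have h1 := three ρ hV2 hy hf v
  have h2 := three ρ hV2 hay hfay v
  refine ⟨ρ a (ρ y v), ?_⟩
  have e1 : ρ (a * y) (ρ (a * y) v) = ρ c (ρ y (ρ y v)) := by
    rw [← mulv, ← mulv, ← mulv]
    congr 2
    rw [← habc, ← hb]; group
  have e2 : ρ y (ρ y v) = v + ρ y v := by
    have : ρ y (ρ y v) = -(v + ρ y v) := by
      rw [eq_neg_iff_add_eq_zero, add_comm]; exact h1
    rw [this, neg_eq_iff_add_eq_zero]
    exact hV2 _
  rw [e1, e2, map_add] at h2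
  have e3 : ρ c (ρ y v) = ρ b (ρ a (ρ y v)) := by
    rw [← habc, hab, mulv]
  rw [e3, mulv] at h2
  have h3 : v + ρ c v + (ρ a (ρ y v) + ρ b (ρ a (ρ y v))) = 0 := by
    rw [← h2]; abel
  have h4 : v + ρ c v = -(ρ a (ρ y v) + ρ b (ρ a (ρ y v))) := eq_neg_of_add_eq_zero_left h3
  rw [h4, neg_eq_iff_add_eq_zero]
  exact hV2 _

/-- stabiliser of a set of vectors -/
def St (S : Set V) : Subgroup X where
  carrier := {x | (∀ u ∈ S, ρ x u ∈ S) ∧ ∀ u ∈ S, ρ x⁻¹ u ∈ S}
  mul_mem' := by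
    rintro a b ⟨ha, ha'⟩ ⟨hb, hb'⟩
    refine ⟨fun u hu => ?_, fun u hu => ?_⟩
    · rw [mulv]; exact ha _ (hb u hu)
    · rw [mul_inv_rev, mulv]; exact hb' _ (ha' u hu)
  one_mem' := by
    refine ⟨fun u hu => ?_, fun u hu => ?_⟩
    · rw [onev]; exact hu
    · rw [inv_one, onev]; exact hu
  inv_mem' := by
    rintro a ⟨ha, ha'⟩
    exact ⟨ha', by rw [inv_inv]; exact ha⟩

/-- pointwise stabiliser -/
def Fx (S : Set V) : Subgroup X where
  carrier := {x | ∀ u ∈ S, ρ x u = u}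
  mul_mem' := by
    intro a b ha hb u hu
    rw [mulv, hb u hu, ha u hu]
  one_mem' := fun u _ => onev ρ u
  inv_mem' := by
    intro a ha u hu
    have h := ha u hu
    calc ρ a⁻¹ u = ρ a⁻¹ (ρ a u) := by rw [h]
      _ = u := by rw [← mulv, inv_mul_cancel, onev]

theorem Fx_cj {S : Set V} {x n : X} (hx : x ∈ Fx ρ S) (hn : n ∈ St ρ S) : n * x * n⁻¹ ∈ Fx ρ S := by
  intro u hu
  rw [mulv, mulv]
  rw [hx _ (hn.2 u hu), ← mulv, mul_inv_cancel, onev]

end Act

section Main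

variable {X : Type*} [Group X] [Finite X]

theorem not_two_pow_three (k : ℕ) : 3 ≠ 2 ^ k := by
  intro h
  have h1 : (3 : ℕ) ∣ 2 ^ k := h ▸ dvd_refl 3
  have h2 := Nat.prime_three.dvd_of_dvd_pow h1
  omega

theorem exists_three (hX : IsCIT X) {T W : Subgroup X} (h : NatV T W) :
    ∃ y ∈ normalizer (W : Set X), y ∉ normalizer (T : Set X) ∧ orderOf y = 3 := by
  classical
  by_contra hcon
  push Not at hcon
  have h3N : 3 ∣ Nat.card (normalizer (W : Set X)) := by
    rw [h.card_N]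
    have hD : IsPGroup 2 (W ⊓ centralizer (T : Set X) : Subgroup X) := h.vtx.isPGroup.to_le inf_le_left
    obtain ⟨k, hk⟩ := IsPGroup.iff_card.1 hD
    rw [hk]
    have : 3 ∣ (2 ^ k) ^ 2 - 1 := by
      rw [← pow_mul, mul_comm, pow_mul]
      have : (2 ^ 2) ^ k ≡ 1 [MOD 3] := by
        have h4 : 2 ^ 2 ≡ 1 [MOD 3] := by decide
        simpa using h4.pow k
      exact (Nat.modEq_iff_dvd' (Nat.one_le_pow _ _ (by norm_num))).1 this.symm
    exact (this.mul_right _).mul_right _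
  haveI : Fact (Nat.Prime 3) := ⟨Nat.prime_three⟩
  haveI : Fact (Nat.Prime 2) := ⟨Nat.prime_two⟩
  obtain ⟨y0, hy0⟩ := exists_prime_orderOf_dvd_card' (G := normalizer (W : Set X)) 3 h3N
  have hyo : orderOf (y0 : X) = 3 := by rw [Subgroup.orderOf_coe, hy0]
  have hyT : ∀ n ∈ normalizer (W : Set X), n * (y0 : X) * n⁻¹ ∈ normalizer (T : Set X) := by
    intro n hn
    by_contra hc
    refine hcon _ (mul_mem (mul_mem hn y0.2) (inv_mem hn)) hc ?_
    rw [← hyo]
    exact orderOf_injective (MulAut.conj n).toMonoidHom (MulAut.conj n).injective (y0 : X)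
  have hall : ∀ U : Subgroup X, IsSylowIn 2 U (normalizer (W : Set X)) → (y0 : X) ∈ normalizer (U : Set X) := by
    intro U hU
    obtain ⟨n, hn, rfl⟩ := h.syl.exists_conj hU
    have := hyT n⁻¹ (inv_mem hn)
    rw [normalizer_cj, mem_cj]
    simpa using this
  have hc := h.card_syl' hX
  have h2 := h.one_lt
  obtain ⟨x, hxW, hxT⟩ := h.ex
  have hU : IsSylowIn 2 (H80.cj x T) (normalizer (W : Set X)) := by
    have := h.syl.cj x
    rwa [cj_self_of_mem hxW] at this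
  have hne : H80.cj x T ≠ T := fun hh => hxT (mem_normalizer_iff_cj.mpr hh)
  obtain ⟨U', hU', h1, h2'⟩ : ∃ U' : Subgroup X, IsSylowIn 2 U' (normalizer (W : Set X)) ∧ U' ≠ T ∧
      U' ≠ H80.cj x T := by
    by_contra hcon2
    push Not at hcon2
    have hsub : {U : Subgroup X | IsSylowIn 2 U (normalizer (W : Set X))} ⊆ {T, H80.cj x T} := by
      intro U hU
      by_cases hUT : U = T
      · exact Or.inl hUT
      · exact Or.inr (hcon2 U hU hUT)
    have h3 := Set.ncard_le_ncard hsub (Set.toFinite _)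
    have h4 : ({T, H80.cj x T} : Set (Subgroup X)).ncard ≤ 2 := by
      have h5 := Set.ncard_insert_le T ({H80.cj x T} : Set (Subgroup X))
      rwa [Set.ncard_singleton] at h5
    rw [← Nat.card_coe_set_eq, hc] at h3
    omega
  have h3C : ¬ 3 ∣ Nat.card (centralizer (W : Set X)) := by
    intro hd
    have hp : IsPGroup 2 (centralizer (W : Set X)) := h.syl.1.to_le h.CT
    obtain ⟨k, hk⟩ := IsPGroup.iff_card.1 hp
    rw [hk] at hd
    have := Nat.prime_three.dvd_of_dvd_pow hd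
    omega
  exact h.three hX hU hne hU' h1 (Ne.symm h2') hyo h3C (hall T h.syl) (hall _ hU) (hall _ hU') y0.2

variable {V : Type*} [AddCommGroup V]

theorem main_W (hX : IsCIT X) {T W : Subgroup X} (h : NatV T W) (hV2 : ∀ v : V, v + v = 0)
    (ρ : X →* AddMonoid.End V) (hfp : ∀ y : X, y ≠ 1 → Odd (orderOf y) → ∀ v, ρ y v = v → v = 0)
    {z : X} (hzW : z ∈ W) (hzT : z ∈ centralizer (T : Set X)) (hz1 : z ≠ 1)
    {y : X} (hyW : y ∈ normalizer (W : Set X)) (hyT : y ∉ normalizer (T : Set X)) (hyo : orderOf y = 3) :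
    W ≤ Fx ρ (U ρ z) ∧ normalizer (W : Set X) ≤ St ρ (U ρ z) := by
  have hzz := h.vtx.two z hzW
  have hy3 : y ^ 3 = 1 := by rw [← hyo, pow_orderOf_eq_one]
  have hyyy : y * y * y = 1 := by rw [← hy3, pow_succ, pow_two]
  have hy1 : y ≠ 1 := by
    rintro rfl
    rw [orderOf_one] at hyo
    omega
  have hfy := hfp y hy1 (by rw [hyo]; decide)
  have hcW : y * z * y⁻¹ ∈ W := (mem_normalizer_iff_conj.mp hyW z).mp hzW
  have haW : y⁻¹ * z * y ∈ W := by
    have := (mem_normalizer_iff_conj.mp (inv_mem hyW) z).mp hzW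
    rwa [inv_inv] at this
  set a := y⁻¹ * z * y with ha
  set c := y * z * y⁻¹ with hc
  have hya : y * a * y⁻¹ = z := by rw [ha]; group
  have hyc : y * c * y⁻¹ = a := by
    have hyi : y * y = y⁻¹ := eq_inv_of_mul_eq_one_left hyyy
    have e : y⁻¹ * y⁻¹ = y := by rw [← mul_inv_rev, hyi, inv_inv]
    calc y * c * y⁻¹ = (y * y) * z * (y⁻¹ * y⁻¹) := by rw [hc]; group
      _ = a := by rw [hyi, e, ha]
  have haz : a * z = z * a := comm_of_two h.vtx.two haW hzW
  have hac : a * c = c * a := comm_of_two h.vtx.two haW hcW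
  have hzc : z * c = c * z := comm_of_two h.vtx.two hzW hcW
  have hm : a * z * c = 1 := by
    by_contra hm1
    have hmW : a * z * c ∈ W := mul_mem (mul_mem haW hzW) hcW
    have hmm := h.vtx.two _ hmW
    have e : y * (a * z * c) = (a * z * c) * y := by
      rw [← mul_inv_eq_iff_eq_mul]
      calc y * (a * z * c) * y⁻¹ = (y * a * y⁻¹) * (y * z * y⁻¹) * (y * c * y⁻¹) := by group
        _ = z * c * a := by rw [hya, hyc]
        _ = a * z * c := by rw [mul_assoc z c a, ← hac, ← mul_assoc, ← haz]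
    obtain ⟨k, hk⟩ := hX.order_of_comm hm1 (order_two_pow_of_sq hmm) e
    rw [hyo] at hk
    exact not_two_pow_three k hk
  have hcc := h.vtx.two c hcW
  have haa := h.vtx.two a haW
  have hazc : a * z = c := by
    rw [eq_inv_of_mul_eq_one_left hm]
    exact inv_of_two h.vtx.two hcW
  have hay : (a * y) ^ 3 = 1 := by
    have e3 : (a * y) ^ 3 = (a * y) * (a * y) * (a * y) := by rw [pow_succ, pow_two]
    rw [e3]
    have hyi : y * y = y⁻¹ := eq_inv_of_mul_eq_one_left hyyy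
    have hyi2 : y⁻¹ * y⁻¹ = y := by rw [← mul_inv_rev, hyi, inv_inv]
    calc (a * y) * (a * y) * (a * y) = a * (y * a * y⁻¹) * (y * (y * a * y⁻¹) * y⁻¹) * (y * y * y) := by group
      _ = a * z * c := by rw [hya, ← hc, hyyy, mul_one]
      _ = 1 := hm
  have hay1 : a * y ≠ 1 := by
    intro hh
    have e1 : y = a⁻¹ := eq_inv_of_mul_eq_one_right hh
    rw [inv_of_two h.vtx.two haW] at e1
    have e2 : y * y = 1 := by rw [e1]; exact haa
    rw [e2, one_mul] at hyyy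
    exact hy1 hyyy
  have hfay := hfp (a * y) hay1 (Odd.of_dvd_nat (by decide : Odd 3) (orderOf_dvd_of_pow_eq_one hay))
  have hkey := key ρ hV2 hy3 hfy hya haz hazc haa hay hfay
  -- `y` stabilizes `U z`
  have hyS0 : ∀ u ∈ U ρ z, ρ y u ∈ U ρ z := by
    intro u hu
    obtain ⟨v, hv⟩ := U_cj ρ (n := y) hu
    rw [hv]
    exact hkey v
  have hyS : y ∈ St ρ (U ρ z) := by
    refine ⟨hyS0, fun u hu => ?_⟩
    have hyi : y⁻¹ = y * y := (eq_inv_of_mul_eq_one_left hyyy).symm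
    rw [hyi, mulv]
    exact hyS0 _ (hyS0 _ hu)
  have hTS : T ≤ St ρ (U ρ z) := by
    have h0 : ∀ t ∈ T, ∀ u ∈ U ρ z, ρ t u ∈ U ρ z := by
      intro t ht u hu
      have h1 := U_cj ρ (n := t) hu
      have h2 : t * z * t⁻¹ = z := by rw [mem_centralizer_iff.mp hzT t ht]; group
      rwa [h2] at h1
    intro t ht
    exact ⟨h0 t ht, h0 t⁻¹ (inv_mem ht)⟩
  have hTS' : H80.cj y T ≤ St ρ (U ρ z) := by
    intro g hg
    rw [mem_cj] at hg
    have e : g = y * (y⁻¹ * g * y) * y⁻¹ := by group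
    rw [e]
    exact mul_mem (mul_mem hyS (hTS hg)) (inv_mem hyS)
  have hNS : normalizer (W : Set X) ≤ St ρ (U ρ z) := by
    rw [← h.gen y hyW hyT]
    exact sup_le hTS hTS'
  refine ⟨?_, hNS⟩
  have hzF : z ∈ Fx ρ (U ρ z) := fun u hu => fix_of_mem_U ρ hV2 hzz hu
  have hcF : c ∈ Fx ρ (U ρ z) := Fx_cj ρ hzF hyS
  have hcU : c ∈ centralizer (H80.cj y T : Set X) := conj_mem_centralizer (x := y) (U := T) rfl hzT
  have hcT : c ∉ centralizer (T : Set X) := by
    intro hh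
    have hc1 := h.disj y hyW hyT c hcW hh hcU
    apply hz1
    have : z = y⁻¹ * c * y := by rw [hc]; group
    rw [this, hc1]; group
  have hroot : ∀ w ∈ W, w ∈ centralizer (T : Set X) → w ∈ Fx ρ (U ρ z) := by
    intro w hw hwT
    obtain ⟨t, ht, e⟩ := h.reg c hcW hcT w hw hwT
    have h1 : t * c * t⁻¹ ∈ Fx ρ (U ρ z) := Fx_cj ρ hcF (hTS ht)
    have h2 : w = c⁻¹ * (t * c * t⁻¹) := by rw [e]; group
    rw [h2]
    exact mul_mem (inv_mem hcF) h1
  intro w hw
  have hU : IsSylowIn 2 (H80.cj y T) (normalizer (W : Set X)) := by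
    have := h.syl.cj y
    rwa [cj_self_of_mem hyW] at this
  have hne : H80.cj y T ≠ T := fun hh => hyT (mem_normalizer_iff_cj.mpr hh)
  obtain ⟨r, hr, hrT, u, hu, huU, rfl⟩ := h.exists_mul hX hU hne hw
  refine mul_mem (hroot r hr hrT) ?_
  have h1 : y⁻¹ * u * y ∈ W := by
    have := (mem_normalizer_iff_conj.mp (inv_mem hyW) u).mp hu
    rwa [inv_inv] at this
  have h2 : y⁻¹ * u * y ∈ centralizer (T : Set X) := by
    rw [cj_centralizer, mem_cj] at huU
    exact huU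
  have h3 := hroot _ h1 h2
  have e : u = y * (y⁻¹ * u * y) * y⁻¹ := by group
  rw [e]
  exact Fx_cj ρ h3 hyS

theorem no_pair (hX : IsCIT X) (hN : ∀ N : Subgroup X, N.Normal → IsPGroup 2 N → N = ⊥)
    {T W W' : Subgroup X} (h : Pair T W W') (hV2 : ∀ v : V, v + v = 0)
    (ρ : X →* AddMonoid.End V) (hfp : ∀ y : X, y ≠ 1 → Odd (orderOf y) → ∀ v, ρ y v = v → v = 0)
    (hV : ∃ v : V, v ≠ 0) : False := by
  obtain ⟨z, hz, hzT, hz1⟩ := h.nat.exists_mem
  have hz' : z ∈ W' := by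
    have h1 : z ∈ W ⊓ centralizer (T : Set X) := ⟨hz, hzT⟩
    rw [h.inf_eq, ← h.inf] at h1
    exact h1.2
  obtain ⟨y, hyW, hyT, hyo⟩ := exists_three hX h.nat
  obtain ⟨y', hyW', hyT', hyo'⟩ := exists_three hX h.nat'
  obtain ⟨h1, h2⟩ := main_W hX h.nat hV2 ρ hfp hz hzT hz1 hyW hyT hyo
  obtain ⟨h1', h2'⟩ := main_W hX h.nat' hV2 ρ hfp hz' hzT hz1 hyW' hyT' hyo'
  have hTF : T ≤ Fx ρ (U ρ z) := by
    rw [← h.sup]
    exact sup_le h1 h1'
  have hTF' : H80.cj y T ≤ Fx ρ (U ρ z) := by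
    intro g hg
    rw [mem_cj] at hg
    have e : g = y * (y⁻¹ * g * y) * y⁻¹ := by group
    rw [e]
    exact Fx_cj ρ (hTF hg) (h2 hyW)
  have hyF : y ∈ Fx ρ (U ρ z) := by
    have : normalizer (W : Set X) ≤ Fx ρ (U ρ z) := by
      rw [← h.nat.gen y hyW hyT]
      exact sup_le hTF hTF'
    exact this hyW
  have hy1 : y ≠ 1 := by
    rintro rfl
    rw [orderOf_one] at hyo
    omega
  have hfy := hfp y hy1 (by rw [hyo]; decide)
  have hzρ : z ∈ ρ.ker := by
    rw [MonoidHom.mem_ker]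
    ext v
    have h3 : v + ρ z v = 0 := hfy _ (hyF _ ⟨v, rfl⟩)
    have h4 : ρ z v = -v := eq_neg_of_add_eq_zero_right h3
    have h5 : -v = v := by rw [neg_eq_iff_add_eq_zero]; exact hV2 v
    rw [h4, h5]
    rfl
  have hker : IsPGroup 2 ρ.ker := by
    intro x
    obtain ⟨k, m, hm, hkm⟩ := Nat.exists_eq_two_pow_mul_odd (n := orderOf (x : X)) (orderOf_pos _).ne'
    refine ⟨k, ?_⟩
    apply Subtype.ext
    by_contra hne
    have hne' : (x : X) ^ 2 ^ k ≠ 1 := hne
    obtain ⟨v, hv⟩ := hV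
    apply hv
    have hord : orderOf ((x : X) ^ 2 ^ k) = m := by
      rw [orderOf_pow_of_dvd (by positivity) (by rw [hkm]; exact dvd_mul_right _ _), hkm,
        Nat.mul_div_cancel_left _ (by positivity)]
    refine hfp _ hne' (by rw [hord]; exact hm) v ?_
    have h3 : ρ ((x : X) ^ 2 ^ k) = 1 := by
      rw [map_pow, (MonoidHom.mem_ker.mp x.2), one_pow]
    rw [h3]
    rfl
  have h6 := hN ρ.ker inferInstance hker
  rw [h6] at hzρ
  exact hz1 hzρ

end Main

end Cfsg.Agent.H54.MtPair
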