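import Mathlib
import Cfsg.Agent.H54.MtPair
import Cfsg.Agent.JY.Struct

set_option autoImplicit false
set_option linter.unusedSectionVars false
set_option linter.style.haveILetI false
set_option linter.unusedVariables false

/-!
# The quotient of a CIT group by a nontrivial normal 2-subgroup has no pairs
-/

namespace Cfsg.Agent.H54.MtAct

open Subgroup Cfsg Cfsg.Agent.H80 Cfsg.Agent.CIT

universe u
variable {G : Type u} [Group G]

/-- `Ω₁(Z(Q))` -/
def E (Q : Subgroup G) : Subgroup G where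
  carrier := {e | e ∈ Q ∧ (∀ q ∈ Q, q * e = e * q) ∧ e * e = 1}
  mul_mem' := by
    rintro a b ⟨ha, ha', ha''⟩ ⟨hb, hb', hb''⟩
    refine ⟨mul_mem ha hb, fun q hq => ?_, ?_⟩
    · rw [← mul_assoc, ha' q hq, mul_assoc, hb' q hq, mul_assoc]
    · calc a * b * (a * b) = a * (b * a) * b := by group
        _ = a * (a * b) * b := by rw [ha' b hb]
        _ = (a * a) * (b * b) := by group
        _ = 1 := by rw [ha'', hb'', one_mul]
  one_mem' := ⟨one_mem _, fun q _ => by rw [mul_one, one_mul], mul_one 1⟩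
  inv_mem' := by
    rintro a ⟨ha, ha', ha''⟩
    have e : a⁻¹ = a := inv_eq_of_mul_eq_one_left ha''
    rw [e]
    exact ⟨ha, ha', ha''⟩

theorem mem_E {Q : Subgroup G} {e : G} : e ∈ E Q ↔ e ∈ Q ∧ (∀ q ∈ Q, q * e = e * q) ∧ e * e = 1 := Iff.rfl

theorem E_conj {Q : Subgroup G} (hQ : Q.Normal) {e : G} (he : e ∈ E Q) (g : G) : g * e * g⁻¹ ∈ E Q := by
  obtain ⟨h1, h2, h3⟩ := he
  refine ⟨hQ.conj_mem e h1 g, fun q hq => ?_, ?_⟩
  · have h4 : g⁻¹ * q * g ∈ Q := by
      have := hQ.conj_mem q hq g⁻¹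
      rwa [inv_inv] at this
    calc q * (g * e * g⁻¹) = g * ((g⁻¹ * q * g) * e) * g⁻¹ := by group
      _ = g * (e * (g⁻¹ * q * g)) * g⁻¹ := by rw [h2 _ h4]
      _ = g * e * g⁻¹ * q := by group
  · calc g * e * g⁻¹ * (g * e * g⁻¹) = g * (e * e) * g⁻¹ := by group
      _ = 1 := by rw [h3]; group

instance (Q : Subgroup G) : CommGroup (E Q) :=
  { (inferInstance : Group (E Q)) with
    mul_comm := fun a b => Subtype.ext ((b.2.2.1 _ a.2.1)) }

/-- the action by conjugation -/
def rho0 (Q : Subgroup G) (hQ : Q.Normal) : G →* AddMonoid.End (Additive (E Q)) where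
  toFun g :=
    { toFun := fun v => Additive.ofMul ⟨g * ((Additive.toMul v : E Q) : G) * g⁻¹, E_conj hQ (Additive.toMul v).2 g⟩
      map_zero' := by
        apply Additive.toMul.injective
        apply Subtype.ext
        show g * (1 : G) * g⁻¹ = 1
        group
      map_add' := by
        intro v w
        apply Additive.toMul.injective
        apply Subtype.ext
        show g * (((Additive.toMul v : E Q) : G) * ((Additive.toMul w : E Q) : G)) * g⁻¹ =
          g * ((Additive.toMul v : E Q) : G) * g⁻¹ * (g * ((Additive.toMul w : E Q) : G) * g⁻¹)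
        group }
  map_one' := by
    refine DFunLike.ext _ _ fun v => ?_
    apply Additive.toMul.injective
    apply Subtype.ext
    show 1 * ((Additive.toMul v : E Q) : G) * 1⁻¹ = _
    rw [one_mul, inv_one, mul_one]
    rfl
  map_mul' := by
    intro g h
    refine DFunLike.ext _ _ fun v => ?_
    apply Additive.toMul.injective
    apply Subtype.ext
    show g * h * ((Additive.toMul v : E Q) : G) * (g * h)⁻¹ = g * (h * ((Additive.toMul v : E Q) : G) * h⁻¹) * g⁻¹
    group

theorem rho0_apply (Q : Subgroup G) (hQ : Q.Normal) (g : G) (v : Additive (E Q)) :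
    ((Additive.toMul (rho0 Q hQ g v) : E Q) : G) = g * ((Additive.toMul v : E Q) : G) * g⁻¹ := rfl

theorem rho0_of_mem (Q : Subgroup G) (hQ : Q.Normal) {g : G} (hg : g ∈ Q) : rho0 Q hQ g = 1 := by
  refine DFunLike.ext _ _ fun v => ?_
  apply Additive.toMul.injective
  apply Subtype.ext
  rw [rho0_apply, (Additive.toMul v).2.2.1 g hg, mul_inv_cancel_right]
  rfl

/-- the action of `G / Q` -/
def rho (Q : Subgroup G) [hQ : Q.Normal] : G ⧸ Q →* AddMonoid.End (Additive (E Q)) :=
  QuotientGroup.lift Q (rho0 Q hQ) fun _ hg => rho0_of_mem Q hQ hg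

theorem rho_mk (Q : Subgroup G) [hQ : Q.Normal] (g : G) : rho Q (QuotientGroup.mk g) = rho0 Q hQ g := rfl

/-- elements of odd order lift to elements of odd order -/
theorem exists_lift [Finite G] {Q : Subgroup G} [Q.Normal] (hQ : IsPGroup 2 Q) {x : G ⧸ Q} (hx1 : x ≠ 1)
    (hx : Odd (orderOf x)) : ∃ y : G, (QuotientGroup.mk y : G ⧸ Q) = x ∧ Odd (orderOf y) ∧ y ≠ 1 := by
  obtain ⟨g, rfl⟩ := QuotientGroup.mk_surjective x
  set n := orderOf (QuotientGroup.mk g : G ⧸ Q) with hn
  have hn1 : 1 < n := by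
    have h0 : n ≠ 0 := (orderOf_pos _).ne'
    have h1 : n ≠ 1 := fun h => hx1 (orderOf_eq_one_iff.1 h)
    omega
  have h1 : g ^ n ∈ Q := by
    rw [← QuotientGroup.eq_one_iff, QuotientGroup.mk_pow, hn, pow_orderOf_eq_one]
  obtain ⟨k, hk⟩ := hQ ⟨_, h1⟩
  have hk' : (g ^ n) ^ 2 ^ k = 1 := congrArg Subtype.val hk
  have hcop : Nat.Coprime (2 ^ k) n := Nat.Coprime.pow_left k ((Nat.coprime_two_left).2 hx)
  obtain ⟨m, -, hm⟩ := Nat.exists_mul_mod_eq_one_of_coprime hcop hn1
  refine ⟨g ^ (2 ^ k * m), ?_, ?_, ?_⟩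
  · rw [QuotientGroup.mk_pow, ← pow_mod_orderOf, ← hn, hm, pow_one]
  · refine Odd.of_dvd_nat hx (orderOf_dvd_of_pow_eq_one ?_)
    rw [← pow_mul, mul_comm (2 ^ k * m) n, ← mul_assoc, pow_mul, pow_mul, hk', one_pow]
  · intro h
    apply hx1
    have h2 : (QuotientGroup.mk (g ^ (2 ^ k * m)) : G ⧸ Q) = QuotientGroup.mk g := by
      rw [QuotientGroup.mk_pow, ← pow_mod_orderOf, ← hn, hm, pow_one]
    rw [← h2, h]
    rfl

theorem exists_ne [Finite G] {Q : Subgroup G} (hQ : IsPGroup 2 Q) (hne : Q ≠ ⊥) : ∃ v : Additive (E Q), v ≠ 0 := by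
  haveI := Fact.mk Nat.prime_two
  haveI : Nontrivial Q := (Subgroup.nontrivial_iff_ne_bot Q).2 hne
  obtain ⟨n, hn, hn1⟩ := (hQ.to_subgroup (center Q)).nontrivial_iff_card.1 hQ.center_nontrivial
  obtain ⟨z, hz⟩ := exists_prime_orderOf_dvd_card' (G := center Q) 2
    (by rw [hn1]; exact dvd_pow_self 2 (by omega))
  have hzo : orderOf ((z : Q) : G) = 2 := by
    rw [Subgroup.orderOf_coe, Subgroup.orderOf_coe, hz]
  have hzz : ((z : Q) : G) * ((z : Q) : G) = 1 := by
    rw [← pow_two, ← hzo, pow_orderOf_eq_one]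
  refine ⟨Additive.ofMul ⟨((z : Q) : G), (z : Q).2, fun q hq => ?_, hzz⟩, ?_⟩
  · exact congrArg Subtype.val (mem_center_iff.1 z.2 ⟨q, hq⟩)
  · intro h
    have h1 : ((z : Q) : G) = 1 := congrArg (fun v : Additive (E Q) => ((Additive.toMul v : E Q) : G)) h
    rw [h1, orderOf_one] at hzo
    omega

theorem no_pair [Finite G] (hG : JY.CIT G) {Q : Subgroup G} [hQn : Q.Normal] (hQ : IsPGroup 2 Q) (hne : Q ≠ ⊥)
    {L : Subgroup (G ⧸ Q)} (hL : IsCIT L) [IsSimpleGroup L] (hab : ∃ a b : L, a * b ≠ b * a)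
    {T W W' : Subgroup L} (h : Pair T W W') : False := by
  haveI := Fact.mk Nat.prime_two
  refine MtPair.no_pair (V := Additive (E Q)) hL ?_ h ?_ ((rho Q).comp L.subtype) ?_ (exists_ne hQ hne)
  · intro N hN hN2
    rcases hN.eq_bot_or_eq_top with h1 | h1
    · exact h1
    · exfalso
      obtain ⟨a, b, hne⟩ := hab
      have h2 : IsPGroup 2 L := by
        intro x
        have hx : x ∈ N := by rw [h1]; exact mem_top x
        obtain ⟨k, hk⟩ := hN2 ⟨x, hx⟩
        exact ⟨k, congrArg Subtype.val hk⟩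
      haveI := h2.isNilpotent
      have h3 : Group.IsSolvable L := inferInstance
      exact hne ((IsSimpleGroup.comm_iff_isSolvable.2 h3) a b)
  · intro v
    apply Additive.toMul.injective
    apply Subtype.ext
    exact (Additive.toMul v).2.2.2
  · intro y hy1 hyo v hv
    have hy1' : (y : G ⧸ Q) ≠ 1 := fun hh => hy1 (Subtype.ext hh)
    obtain ⟨x, hx, hxo, hx1⟩ := exists_lift hQ hy1' (by rw [Subgroup.orderOf_coe]; exact hyo)
    by_contra hv0
    have hv0' : ((Additive.toMul v : E Q) : G) ≠ 1 := by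
      intro hh
      apply hv0
      apply Additive.toMul.injective
      apply Subtype.ext
      exact hh
    have h1 : x * ((Additive.toMul v : E Q) : G) * x⁻¹ = ((Additive.toMul v : E Q) : G) := by
      have h2 : rho Q (y : G ⧸ Q) v = v := hv
      rw [← hx, rho_mk] at h2
      exact congrArg (fun v : Additive (E Q) => ((Additive.toMul v : E Q) : G)) h2
    apply hx1
    refine hG.odd_comm hv0' (k := 1) ?_ ?_ (mul_inv_eq_iff_eq_mul.1 h1).symm
    · rw [pow_one, pow_two]
      exact (Additive.toMul v).2.2.2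
    · rw [← even_iff_two_dvd, Nat.not_even_iff_odd]
      exact hxo

end Cfsg.Agent.H54.MtAct
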