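import Mathlib
import Cfsg.Agent.Frob.Action

/-! Small facts on 2-groups. -/

set_option autoImplicit false
set_option linter.all false

namespace Cfsg.Agent.H54

/-- an abelian 2-group with at most one involution is cyclic -/
theorem cyc_of_unique {A : Type*} [Group A] [Finite A] (hc : ∀ a b : A, a * b = b * a) (hA : IsPGroup 2 A)
    (h : ∀ s s' : A, s * s = 1 → s ≠ 1 → s' * s' = 1 → s' ≠ 1 → s = s') : IsCyclic A := by
  classical
  haveI : Fact (Nat.Prime 2) := ⟨Nat.prime_two⟩
  letI : CommGroup A := { (inferInstance : Group A) with mul_comm := hc }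
  apply Frob.isCyclic_of_comm_of_sq
  intro p hp B hB
  have hBp : IsPGroup 2 B := hA.to_subgroup B
  obtain ⟨k, hk⟩ := IsPGroup.iff_card.1 hBp
  have hp2 : p = 2 := by
    have h1 : p ∣ 2 ^ k := by rw [← hk, hB]; exact dvd_mul_right p p
    exact (Nat.prime_dvd_prime_iff_eq hp Nat.prime_two).1 (hp.dvd_of_dvd_pow h1)
  subst hp2
  by_contra hcyc
  -- every element of `B` has order at most two
  have h2 : ∀ b : B, b * b = 1 := by
    intro b
    have h3 : orderOf b ∣ 2 * 2 := by rw [← hB]; exact orderOf_dvd_natCard b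
    have h4 : orderOf b ∣ 2 ^ 2 := by rw [sq]; exact h3
    obtain ⟨j, hj, hj'⟩ := (Nat.dvd_prime_pow Nat.prime_two).1 h4
    interval_cases j
    · rw [pow_zero, orderOf_eq_one_iff] at hj'
      rw [hj', one_mul]
    · rw [pow_one] at hj'
      rw [← sq, ← hj', pow_orderOf_eq_one]
    · exfalso
      apply hcyc
      apply isCyclic_of_orderOf_eq_card b
      rw [hj', hB]; rfl
  have h3 : Nat.card B ≤ 2 := by
    have h4 : Function.Injective (fun b : B => if b = 1 then (0 : Fin 2) else 1) := by
      intro b b' hbb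
      by_cases hb : b = 1
      · by_cases hb' : b' = 1
        · rw [hb, hb']
        · simp only [hb, if_true, hb', if_false] at hbb
          exact absurd hbb (by decide)
      · by_cases hb' : b' = 1
        · simp only [hb', if_true, hb, if_false] at hbb
          exact absurd hbb (by decide)
        · apply Subtype.ext
          apply h
          · exact congrArg Subtype.val (h2 b)
          · exact fun h => hb (Subtype.ext h)
          · exact congrArg Subtype.val (h2 b')
          · exact fun h => hb' (Subtype.ext h)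
    have h5 := Nat.card_le_card_of_injective _ h4
    rwa [Nat.card_eq_fintype_card (α := Fin 2), Fintype.card_fin] at h5
  rw [hB] at h3
  omega

/-- a normal subgroup of a 2-group meets the centre -/
theorem meet_center {P : Type*} [Group P] [Finite P] (hP : IsPGroup 2 P) (N : Subgroup P) [hN : N.Normal]
    (hne : N ≠ ⊥) : ∃ x ∈ N, x ≠ 1 ∧ x ∈ Subgroup.center P := by
  haveI : Fact (Nat.Prime 2) := ⟨Nat.prime_two⟩
  haveI : Nontrivial N := (Subgroup.nontrivial_iff_ne_bot N).2 hne
  have h2 : 2 ∣ Nat.card N := by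
    obtain ⟨k, hk⟩ := IsPGroup.iff_card.1 (hP.to_subgroup N)
    have : k ≠ 0 := by
      rintro rfl
      rw [pow_zero] at hk
      have := Finite.one_lt_card (α := N)
      omega
    rw [hk]; exact dvd_pow_self 2 this
  have hP' : IsPGroup 2 (ConjAct P) := hP
  have h1 : (1 : N) ∈ MulAction.fixedPoints (ConjAct P) N := by
    intro g
    exact smul_one g
  obtain ⟨b, hb, hb1⟩ := hP'.exists_fixed_point_of_prime_dvd_card_of_fixed_point (α := N) h2 h1
  refine ⟨b, b.2, fun h => hb1 (Subtype.ext h.symm), ?_⟩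
  rw [Subgroup.mem_center_iff]
  intro g
  have h3 := congrArg Subtype.val (hb (ConjAct.toConjAct g))
  rw [ConjAct.Subgroup.val_conj_smul, ConjAct.smul_def, ConjAct.ofConjAct_toConjAct] at h3
  exact mul_inv_eq_iff_eq_mul.1 h3

theorem mem_zp {P : Type*} [Group P] {z x : P} (hz : z * z = 1) (hx : x ∈ Subgroup.zpowers z) : x = 1 ∨ x = z := by
  obtain ⟨n, rfl⟩ := Subgroup.mem_zpowers_iff.1 hx
  rcases Int.even_or_odd n with ⟨k, hk⟩ | ⟨k, hk⟩
  · left
    rw [hk, zpow_add, ← (Commute.refl z).mul_zpow, hz, one_zpow]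
  · right
    rw [hk, zpow_add, two_mul, zpow_add, ← (Commute.refl z).mul_zpow, hz, one_zpow, one_mul, zpow_one]

/-- second central elements in normal elementary abelian subgroups -/
theorem exists_second {P : Type*} [Group P] [Finite P] (hP : IsPGroup 2 P) (W : Subgroup P) [hW : W.Normal]
    {z : P} (hz : z * z = 1) (hzc : z ∈ Subgroup.center P) {w : P} (hw : w ∈ W) (hw1 : w ≠ 1) (hwz : w ≠ z) :
    ∃ f ∈ W, f ≠ 1 ∧ f ≠ z ∧ ∀ s : P, s * f * s⁻¹ = f ∨ s * f * s⁻¹ = z * f := by
  haveI hZn : (Subgroup.zpowers z).Normal := by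
    constructor
    intro n hn g
    have h1 : n ∈ Subgroup.center P := (Subgroup.zpowers_le.2 hzc) hn
    have h2 := Subgroup.mem_center_iff.1 h1 g
    rw [h2, mul_inv_cancel_right]; exact hn
  have hne : W.map (QuotientGroup.mk' (Subgroup.zpowers z)) ≠ ⊥ := by
    intro h
    have h1 : QuotientGroup.mk' (Subgroup.zpowers z) w ∈ W.map (QuotientGroup.mk' (Subgroup.zpowers z)) :=
      Subgroup.mem_map_of_mem _ hw
    rw [h, Subgroup.mem_bot, QuotientGroup.mk'_apply, QuotientGroup.eq_one_iff] at h1
    rcases mem_zp hz h1 with h2 | h2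
    · exact hw1 h2
    · exact hwz h2
  haveI : (W.map (QuotientGroup.mk' (Subgroup.zpowers z))).Normal :=
    hW.map _ (QuotientGroup.mk'_surjective _)
  obtain ⟨q, ⟨f, hf, rfl⟩, hq1, hqc⟩ := meet_center (hP.to_quotient (Subgroup.zpowers z))
    (W.map (QuotientGroup.mk' (Subgroup.zpowers z))) hne
  have hfZ : f ∉ Subgroup.zpowers z := by
    intro h
    apply hq1
    rw [QuotientGroup.mk'_apply, QuotientGroup.eq_one_iff]; exact h
  refine ⟨f, hf, ?_, ?_, ?_⟩
  · rintro rfl; exact hfZ (one_mem _)
  · rintro rfl; exact hfZ (Subgroup.mem_zpowers _)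
  · intro s
    have h1 := Subgroup.mem_center_iff.1 hqc (QuotientGroup.mk' (Subgroup.zpowers z) s)
    rw [← map_mul, ← map_mul, QuotientGroup.mk'_apply, QuotientGroup.mk'_apply] at h1
    have h2 := QuotientGroup.eq.1 h1.symm
    -- `(f s)⁻¹ (s f) ∈ Z`
    rcases mem_zp hz h2 with h3 | h3
    · left
      have h4 : s * f = f * s := by
        have := congrArg (fun y => (f * s) * y) h3
        simpa [mul_assoc] using this
      rw [h4, mul_inv_cancel_right]
    · right
      have h4 : s * f = f * s * z := by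
        have := congrArg (fun y => (f * s) * y) h3
        simpa [mul_assoc] using this
      have h5 := Subgroup.mem_center_iff.1 hzc (f * s)
      rw [h4, h5]; group

/-- a nontrivial 2-group has a subgroup of index two -/
theorem exists_index_two {P : Type*} [Group P] [Finite P] {k : ℕ} (hP : Nat.card P = 2 ^ (k + 1)) :
    ∃ K : Subgroup P, K.index = 2 := by
  haveI : Fact (Nat.Prime 2) := ⟨Nat.prime_two⟩
  obtain ⟨K, hK⟩ := Sylow.exists_subgroup_card_pow_prime (G := P) 2 (n := k) (by
    rw [hP]; exact pow_dvd_pow 2 (Nat.le_succ k))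
  refine ⟨K, ?_⟩
  have h1 := Subgroup.card_mul_index K
  rw [hK, hP, pow_succ] at h1
  exact Nat.eq_of_mul_eq_mul_left (by positivity) h1

theorem quat_unique {n : ℕ} [NeZero n] {x : QuaternionGroup n} (hx : x * x = 1) (h1 : x ≠ 1) :
    x = QuaternionGroup.a (n : ZMod (2 * n)) := by
  have hn : n ≠ 0 := NeZero.ne n
  have hne : NeZero (2 * n) := ⟨by omega⟩
  rcases x with i | i
  · rw [QuaternionGroup.a_mul_a, QuaternionGroup.one_def, QuaternionGroup.a.injEq] at hx
    have hi0 : i ≠ 0 := by
      rintro rfl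
      exact h1 QuaternionGroup.one_def.symm
    congr 1
    have h2 : ((i.val + i.val : ℕ) : ZMod (2 * n)) = 0 := by
      push_cast
      rw [ZMod.natCast_zmod_val]; exact hx
    rw [ZMod.natCast_eq_zero_iff] at h2
    have h3 : i.val < 2 * n := ZMod.val_lt i
    have h4 : i.val ≠ 0 := fun h => hi0 ((ZMod.val_eq_zero i).1 h)
    have h5 : i.val = n := by
      obtain ⟨c, hc⟩ := h2
      have hc' : i.val + i.val = 2 * (n * c) := by rw [hc]; ring
      have h6 : i.val = n * c := by omega
      have h7 : c < 2 := by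
        by_contra hcon
        push Not at hcon
        have : n * 2 ≤ n * c := Nat.mul_le_mul_left _ hcon
        omega
      have h8 : c ≠ 0 := by
        rintro rfl
        simp at h6
        exact h4 (by rw [h6]; simp)
      have : c = 1 := by omega
      rw [h6, this, mul_one]
    have h9 : ((i.val : ℕ) : ZMod (2 * n)) = ((n : ℕ) : ZMod (2 * n)) := congrArg _ h5
    rwa [ZMod.natCast_zmod_val] at h9
  · exfalso
    rw [QuaternionGroup.xa_mul_xa, QuaternionGroup.one_def, QuaternionGroup.a.injEq] at hx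
    have h2 : ((n : ℕ) : ZMod (2 * n)) = 0 := by
      rw [← hx]; ring
    rw [ZMod.natCast_eq_zero_iff] at h2
    have := Nat.le_of_dvd (by omega) h2
    omega

end Cfsg.Agent.H54
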