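import Mathlib

/-! Groups with a maximal Sylow 2-subgroup of order 4. -/

set_option autoImplicit false
set_option linter.all false

open scoped Pointwise

namespace Cfsg.Agent.H54

variable {W : Type*} [Group W] [Finite W]

theorem W4_compl (P : Sylow 2 W) (h4 : Nat.card P = 4)
    (hmax : ∀ H : Subgroup W, (P : Subgroup W) ≤ H → H = P ∨ H = ⊤)
    (hcore : ∀ L : Subgroup W, L.Normal → L ≤ P → L = ⊥) :
    ∃ K : Subgroup W, K.Normal ∧ K.IsComplement' (P : Subgroup W) := by
  haveI : Fact (Nat.Prime 2) := ⟨Nat.prime_two⟩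
  have hab := IsPGroup.commutative_of_card_eq_prime_sq (p := 2) (G := ↥(P : Subgroup W)) (by
    rw [show (2 : ℕ) ^ 2 = 4 by norm_num]; exact h4)
  have hN : Subgroup.normalizer ((P : Subgroup W) : Set W) = P := by
    rcases hmax _ (Subgroup.le_normalizer (H := (P : Subgroup W))) with h | h
    · exact h
    · exfalso
      have h1 : (P : Subgroup W).Normal := Subgroup.normalizer_eq_top_iff.1 h
      have h2 := hcore P h1 le_rfl
      rw [← SetLike.coe_sort_coe] at h4
      have h3 : Nat.card (P : Subgroup W) = 4 := h4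
      rw [h2, Subgroup.card_bot] at h3
      omega
  have hP : Subgroup.normalizer ((P : Subgroup W) : Set W) ≤ Subgroup.centralizer ((P : Subgroup W) : Set W) := by
    rw [hN]
    intro x hx
    rw [Subgroup.mem_centralizer_iff]
    intro y hy
    have := hab ⟨y, hy⟩ ⟨x, hx⟩
    exact congrArg Subtype.val this
  exact ⟨_, inferInstance, MonoidHom.ker_transferSylow_isComplement' P hP⟩

/-- an element of `P` has trivial centralizer in the complement -/
theorem W4_fpf (P : Sylow 2 W) (h4 : Nat.card P = 4)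
    (hmax : ∀ H : Subgroup W, (P : Subgroup W) ≤ H → H = P ∨ H = ⊤)
    (hcore : ∀ L : Subgroup W, L.Normal → L ≤ P → L = ⊥) {K : Subgroup W} (hKP : K ⊓ (P : Subgroup W) = ⊥)
    {p : W} (hp : p ∈ (P : Subgroup W)) (hp1 : p ≠ 1) {k : W} (hk : k ∈ K) (hpk : p * k = k * p) : k = 1 := by
  haveI : Fact (Nat.Prime 2) := ⟨Nat.prime_two⟩
  have hab := IsPGroup.commutative_of_card_eq_prime_sq (p := 2) (G := ↥(P : Subgroup W)) (by
    rw [show (2 : ℕ) ^ 2 = 4 by norm_num]; exact h4)
  have h1 : (P : Subgroup W) ≤ Subgroup.centralizer ({p} : Set W) := by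
    intro x hx
    rw [Subgroup.mem_centralizer_iff]
    rintro y rfl
    have := hab ⟨y, hp⟩ ⟨x, hx⟩
    exact congrArg Subtype.val this
  rcases hmax _ h1 with h | h
  · have h2 : k ∈ Subgroup.centralizer ({p} : Set W) := by
      rw [Subgroup.mem_centralizer_iff]
      rintro y rfl; exact hpk
    rw [h] at h2
    have : k ∈ K ⊓ (P : Subgroup W) := ⟨hk, h2⟩
    rw [hKP] at this; simpa using this
  · exfalso
    have h2 : (Subgroup.zpowers p).Normal := by
      constructor
      intro x hx g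
      obtain ⟨i, rfl⟩ := hx
      have h3 : g ∈ Subgroup.centralizer ({p} : Set W) := by rw [h]; exact Subgroup.mem_top _
      have h4 := Subgroup.mem_centralizer_iff.1 h3 p rfl
      have h5 : g * p ^ i * g⁻¹ = p ^ i := by
        have : Commute g p := h4.symm
        rw [(this.zpow_right i).eq]; group
      rw [h5]; exact ⟨i, rfl⟩
    have h3 := hcore _ h2 (Subgroup.zpowers_le.2 hp)
    rw [Subgroup.zpowers_eq_bot] at h3
    exact hp1 h3

theorem W4_inv {K : Subgroup W} [K.Normal] {p : W} (hpp : p * p = 1)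
    (hf : ∀ k ∈ K, p * k = k * p → k = 1) : ∀ k ∈ K, p * k * p⁻¹ = k⁻¹ := by
  let φ : ↥K →* ↥K := (MulAut.conjNormal p : MulAut ↥K).toMonoidHom
  have h1 : MonoidHom.FixedPointFree φ := by
    intro k hk
    have h2 : p * (k : W) * p⁻¹ = k := congrArg Subtype.val hk
    ext
    exact hf k k.2 (mul_inv_eq_iff_eq_mul.1 h2)
  have h2 : Function.Involutive φ := by
    intro k
    ext
    show p * (p * (k : W) * p⁻¹) * p⁻¹ = k
    have : p * (p * (k : W) * p⁻¹) * p⁻¹ = (p * p) * k * (p * p)⁻¹ := by group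
    rw [this, hpp]; group
  have h3 := h1.coe_eq_inv_of_involutive h2
  intro k hk
  have := congrFun h3 ⟨k, hk⟩
  exact congrArg Subtype.val this

/-- unique involution in `P` -/
theorem W4_unique (P : Sylow 2 W) (h4 : Nat.card P = 4)
    (hmax : ∀ H : Subgroup W, (P : Subgroup W) ≤ H → H = P ∨ H = ⊤)
    (hcore : ∀ L : Subgroup W, L.Normal → L ≤ P → L = ⊥) (hPt : (P : Subgroup W) ≠ ⊤)
    {p q : W} (hp : p ∈ (P : Subgroup W)) (hq : q ∈ (P : Subgroup W)) (hp1 : p ≠ 1) (hq1 : q ≠ 1)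
    (hpp : p * p = 1) (hqq : q * q = 1) : p = q := by
  by_contra hne
  obtain ⟨K, hKn, hK⟩ := W4_compl P h4 hmax hcore
  have hKP : K ⊓ (P : Subgroup W) = ⊥ := hK.disjoint.eq_bot
  have hKt : K ≠ ⊥ := by
    rintro rfl
    have := hK.sup_eq_top
    rw [bot_sup_eq] at this
    exact hPt this
  obtain ⟨k, hk, hk1⟩ : ∃ k ∈ K, k ≠ 1 := by
    obtain ⟨k, hk⟩ := (Subgroup.ne_bot_iff_exists_ne_one).1 hKt
    exact ⟨(k : W), k.2, fun h => hk (Subtype.ext h)⟩
  have i1 := W4_inv hpp (fun k hk h => W4_fpf P h4 hmax hcore hKP hp hp1 hk h) k hk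
  have i2 := W4_inv hqq (fun k hk h => W4_fpf P h4 hmax hcore hKP hq hq1 hk h) k hk
  have hpq1 : p * q ≠ 1 := by
    intro h
    apply hne
    have : q⁻¹ = q := inv_eq_of_mul_eq_one_right hqq
    rw [← this]; exact eq_inv_of_mul_eq_one_left h
  refine hk1 (W4_fpf P h4 hmax hcore hKP (mul_mem hp hq) hpq1 hk ?_)
  have h5 : (p * q) * k * (p * q)⁻¹ = k := by
    calc (p * q) * k * (p * q)⁻¹ = p * (q * k * q⁻¹) * p⁻¹ := by group
      _ = p * k⁻¹ * p⁻¹ := by rw [i2]
      _ = (p * k * p⁻¹)⁻¹ := by group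
      _ = k := by rw [i1, inv_inv]
  exact mul_inv_eq_iff_eq_mul.1 h5

/-- with short chains, `3 ∣ |W|` forces `|W| = 12` -/
theorem W4_twelve (P : Sylow 2 W) (h4 : Nat.card P = 4)
    (hmax : ∀ H : Subgroup W, (P : Subgroup W) ≤ H → H = P ∨ H = ⊤)
    (hcore : ∀ L : Subgroup W, L.Normal → L ≤ P → L = ⊥)
    (hlen : ∀ K₁ K₂ K₃ : Subgroup W, ⊥ < K₁ → K₁ < K₂ → K₂ < K₃ → K₃ < ⊤ → False) (h3 : 3 ∣ Nat.card W) :
    Nat.card W = 12 := by
  haveI : Fact (Nat.Prime 2) := ⟨Nat.prime_two⟩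
  haveI : Fact (Nat.Prime 3) := ⟨Nat.prime_three⟩
  obtain ⟨K, hKn, hK⟩ := W4_compl P h4 hmax hcore
  have hc := hK.card_mul
  have h4' : Nat.card (P : Subgroup W) = 4 := h4
  have hKP : K ⊓ (P : Subgroup W) = ⊥ := hK.disjoint.eq_bot
  rw [h4'] at hc
  have h3K : 3 ∣ Nat.card K := by
    rw [← hc] at h3
    exact Nat.Coprime.dvd_of_dvd_mul_right (by norm_num) h3
  obtain ⟨k, hk⟩ := exists_prime_orderOf_dvd_card' 3 h3K
  have h5 : Nat.card (Subgroup.zpowers (k : W)) = 3 := by
    rw [Nat.card_zpowers, Subgroup.orderOf_coe, hk]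
  have hle : Subgroup.zpowers (k : W) ≤ K := Subgroup.zpowers_le.2 k.2
  by_cases hKe : Subgroup.zpowers (k : W) = K
  · rw [hKe] at h5; rw [← hc, h5]
  · exfalso
    obtain ⟨p, hp⟩ := exists_prime_orderOf_dvd_card' (G := ↥(P : Subgroup W)) 2 (by rw [h4']; norm_num)
    have hpW : orderOf (p : W) = 2 := by rw [Subgroup.orderOf_coe, hp]
    have hcp : Nat.card (Subgroup.zpowers (p : W)) = 2 := by rw [Nat.card_zpowers, hpW]
    refine hlen (Subgroup.zpowers (k : W)) K (K ⊔ Subgroup.zpowers (p : W)) ?_ (lt_of_le_of_ne hle hKe) ?_ ?_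
    · rw [bot_lt_iff_ne_bot]
      rintro h; rw [h, Subgroup.card_bot] at h5; omega
    · refine lt_of_le_of_ne le_sup_left ?_
      intro h
      have h6 : (p : W) ∈ K := by
        rw [h]; exact (le_sup_right : Subgroup.zpowers (p : W) ≤ _) (Subgroup.mem_zpowers _)
      have h7 : (p : W) ∈ K ⊓ (P : Subgroup W) := ⟨h6, p.2⟩
      rw [hKP, Subgroup.mem_bot] at h7
      rw [h7, orderOf_one] at hpW; omega
    · rw [lt_top_iff_ne_top]
      intro h
      have h6 : Nat.card W ≤ Nat.card K * 2 := by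
        have h7 : ((K ⊔ Subgroup.zpowers (p : W) : Subgroup W) : Set W) = (K : Set W) * (Subgroup.zpowers (p : W) : Set W) :=
          Subgroup.normal_mul K (Subgroup.zpowers (p : W))
        rw [h, Subgroup.coe_top] at h7
        have h8 : Nat.card W = (Set.univ : Set W).ncard := (Set.ncard_univ W).symm
        rw [h8, h7]
        have h9 := Set.natCard_mul_le (s := (K : Set W)) (t := (Subgroup.zpowers (p : W) : Set W))
        rw [← Nat.card_coe_set_eq]
        refine h9.trans ?_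
        have e1 : Nat.card ↑(K : Set W) = Nat.card K := rfl
        have e2 : Nat.card ↑(Subgroup.zpowers (p : W) : Set W) = 2 := hcp
        rw [e1, e2]
      have h7 : 0 < Nat.card K := Nat.card_pos
      omega

end Cfsg.Agent.H54
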